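import Cfsg.Agent.H743.HT.Orb
import Cfsg.Agent.H777.PGrp

/-!
# S4933, theorem M: the group theory (helper743)

`Hyp P A z` : `P` a `3`-subgroup, `A ≤ P` abelian of index `3` and normal in `P`, `z ∈ A` of order `3`, central in `P`, a cube in
`A`, every element of order `3` of `P` that is central in `P` is a power of `z`, `27 ∣ |A|`.

* `nine_dvd`   : `z ∉ H` ⟹ `9 ∣ |A : A ∩ H|`;
* `twentyseven_dvd` : `z ∉ H` ⟹ `27 ∣ |P : P ∩ H|`.
-/

set_option autoImplicit false

open Subgroup

namespace Cfsg.Agent.H743.HT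

variable {G : Type*} [Group G]

/-- the structure of `P` -/
structure Hyp (P A : Subgroup G) (z : G) : Prop where
  pg : IsPGroup 3 P
  le : A ≤ P
  idx : A.relIndex P = 3
  nor : ∀ x ∈ P, ∀ a ∈ A, x * a * x⁻¹ ∈ A
  ab : ∀ a ∈ A, ∀ b ∈ A, a * b = b * a
  zA : z ∈ A
  z1 : z ≠ 1
  z3 : z ^ 3 = 1
  zc : ∀ x ∈ P, x * z = z * x
  cube : ∃ a ∈ A, a ^ 3 = z
  cen : ∀ x ∈ P, x ^ 3 = 1 → (∀ y ∈ P, y * x = x * y) → x ∈ zpowers z
  card : 27 ∣ Nat.card A

theorem card_inf_mul (H K : Subgroup G) : Nat.card ↥(H ⊓ K) * H.relIndex K = Nat.card K := by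
  have h := relIndex_mul_relIndex (⊥ : Subgroup G) (H ⊓ K) K bot_le inf_le_right
  rw [relIndex_bot_left, relIndex_bot_left, inf_relIndex_right] at h
  exact h

theorem pow_dvd_of_le {n k : ℕ} (h : 3 ^ k ≤ 3 ^ n) : 3 ^ k ∣ 3 ^ n :=
  pow_dvd_pow 3 ((Nat.pow_le_pow_iff_right (by norm_num)).1 h)

variable [Finite G] {P A : Subgroup G} {z : G}

omit [Finite G] in
theorem Hyp.pA (h : Hyp P A z) : IsPGroup 3 A := h.pg.to_le h.le

theorem relIndex_pow {K : Subgroup G} (hK : IsPGroup 3 K) (H : Subgroup G) : ∃ n, H.relIndex K = 3 ^ n := by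
  have : Fact (Nat.Prime 3) := ⟨Nat.prime_three⟩
  exact hK.index _

theorem Hyp.nine_dvd (h : Hyp P A z) {H : Subgroup G} (hz : z ∉ H) : 9 ∣ H.relIndex A := by
  obtain ⟨n, hn⟩ := relIndex_pow h.pA H
  have hnorm : (H.subgroupOf A).Normal := by
    refine ⟨fun x hx g => ?_⟩
    have h1 : g * x = x * g := Subtype.ext (h.ab g g.2 x x.2)
    rw [h1, mul_inv_cancel_right]
    exact hx
  obtain ⟨a, haA, ha⟩ := h.cube
  have h1 : (⟨a, haA⟩ : A) ^ (H.relIndex A) ∈ H.subgroupOf A := pow_index_mem (H.subgroupOf A) _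
  rw [hn] at h1 ⊢
  have hn2 : 2 ≤ n := by
    by_contra hcon
    apply hz
    have h2 : (⟨a, haA⟩ : A) ^ 3 ∈ H.subgroupOf A := by
      interval_cases n
      · rw [pow_zero, pow_one] at h1
        exact pow_mem h1 3
      · rwa [pow_one] at h1
    rw [mem_subgroupOf] at h2
    have h3 : (((⟨a, haA⟩ : A) ^ 3 : A) : G) = z := by rw [Subgroup.coe_pow]; exact ha
    rwa [h3] at h2
  exact pow_dvd_pow 3 hn2

theorem Hyp.twentyseven_dvd (h : Hyp P A z) {H : Subgroup G} (hz : z ∉ H) : 27 ∣ H.relIndex P := by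
  have h3 : Fact (Nat.Prime 3) := ⟨Nat.prime_three⟩
  obtain ⟨n, hn⟩ := relIndex_pow h.pg H
  have hge : 27 ≤ H.relIndex P := by
    have hPA : 3 * Nat.card A = Nat.card P := by
      have h1 := card_inf_mul A P
      rw [inf_eq_left.2 h.le, h.idx] at h1
      rw [← h1, mul_comm]
    have hP := card_inf_mul H P
    have hA := card_inf_mul H A
    have hA0 : 0 < Nat.card A := Nat.card_pos
    by_cases hle : H ⊓ P ≤ A
    · have h4 : H ⊓ P = H ⊓ A := le_antisymm (le_inf inf_le_left hle) (inf_le_inf_left H h.le)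
      have h5 : 0 < H.relIndex A := by
        rcases Nat.eq_zero_or_pos (H.relIndex A) with h0 | h0
        · rw [h0, mul_zero] at hA; omega
        · exact h0
      have h6 : 9 ≤ H.relIndex A := Nat.le_of_dvd h5 (h.nine_dvd hz)
      rw [h4] at hP
      have h7 : 0 < Nat.card ↥(H ⊓ A) := Nat.card_pos
      have h8 : Nat.card ↥(H ⊓ A) * H.relIndex P = Nat.card ↥(H ⊓ A) * (3 * H.relIndex A) := by
        rw [hP, ← hPA, ← hA]; ring
      have h9 := Nat.eq_of_mul_eq_mul_left h7 h8
      omega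
    · obtain ⟨b, hbHP, hbA⟩ := SetLike.not_le_iff_exists.1 hle
      rw [mem_inf] at hbHP
      -- the intersection with `A` is trivial
      have hK : H ⊓ A = ⊥ := by
        by_contra hne
        have hAP : ∀ x ∈ P, ∃ a ∈ A, ∃ k : ℕ, x = a * b ^ k := by
          intro x hx
          have hAn : (A.subgroupOf P).Normal := ⟨fun n hn g => by
            rw [mem_subgroupOf] at hn ⊢
            exact h.nor g g.2 n hn⟩
          have hcard : Nat.card (P ⧸ A.subgroupOf P) = 3 := h.idx
          have hb1 : ((⟨b, hbHP.2⟩ : P) : P ⧸ A.subgroupOf P) ≠ 1 := by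
            rw [Ne, QuotientGroup.eq_one_iff, mem_subgroupOf]
            exact hbA
          have hgen := zpowers_eq_top_of_prime_card hcard hb1
          have hmem : ((⟨x, hx⟩ : P) : P ⧸ A.subgroupOf P) ∈ zpowers ((⟨b, hbHP.2⟩ : P) : P ⧸ A.subgroupOf P) := by
            rw [hgen]; exact mem_top _
          obtain ⟨k, hk⟩ := mem_powers_iff_mem_zpowers.2 hmem
          simp only at hk
          rw [← QuotientGroup.mk_pow, eq_comm, ← div_eq_one, ← QuotientGroup.mk_div, QuotientGroup.eq_one_iff,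
            mem_subgroupOf] at hk
          refine ⟨_, hk, k, ?_⟩
          rw [Subgroup.coe_div, Subgroup.coe_pow, div_mul_cancel]
        let K : Subgroup P := (H ⊓ A).subgroupOf P
        have hKne : K ≠ ⊥ := by
          intro h0
          apply hne
          have h1 := (subgroupOf_eq_bot.1 h0)
          rw [disjoint_iff, inf_eq_left.2 (inf_le_right.trans h.le)] at h1
          exact h1
        have hKn : K.Normal := by
          refine ⟨fun n hn g => ?_⟩
          rw [mem_subgroupOf, mem_inf] at hn ⊢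
          refine ⟨?_, h.nor g g.2 n hn.2⟩
          obtain ⟨a, ha, k, hk⟩ := hAP g g.2
          have h1 : ((g * n * g⁻¹ : P) : G) = b ^ k * n * (b ^ k)⁻¹ := by
            have h2 : b ^ k * (n : G) * (b ^ k)⁻¹ ∈ A := h.nor _ (pow_mem hbHP.2 k) _ hn.2
            have h4 := h.ab a ha _ h2
            rw [Subgroup.coe_mul, Subgroup.coe_mul, Subgroup.coe_inv, hk]
            calc a * b ^ k * (n : G) * (a * b ^ k)⁻¹ = a * (b ^ k * (n : G) * (b ^ k)⁻¹) * a⁻¹ := by group
              _ = _ := by rw [h4, mul_inv_cancel_right]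
          rw [h1]
          exact H.mul_mem (H.mul_mem (pow_mem hbHP.1 k) hn.1) (H.inv_mem (pow_mem hbHP.1 k))
        obtain ⟨c, hcK, hc1, hcc⟩ := H777.PGrp.inf_center_ne_bot h.pg hKne hKn
        -- an element of order three
        have hord : ∃ m : ℕ, (c ^ m) ^ 3 = 1 ∧ c ^ m ≠ 1 := by
          obtain ⟨m, hm⟩ := IsPGroup.iff_orderOf.1 h.pg c
          have hm0 : m ≠ 0 := by
            rintro rfl
            rw [pow_zero] at hm
            exact hc1 (orderOf_eq_one_iff.1 hm)
          obtain ⟨l, rfl⟩ := Nat.exists_eq_succ_of_ne_zero hm0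
          refine ⟨3 ^ l, ?_, ?_⟩
          · rw [← pow_mul, ← pow_succ, ← hm, pow_orderOf_eq_one]
          · intro h1
            have h2 := orderOf_dvd_of_pow_eq_one h1
            rw [hm] at h2
            have h5 := (Nat.pow_dvd_pow_iff_le_right (by norm_num)).1 h2
            omega
        obtain ⟨m, hm3, hm1⟩ := hord
        have h5 : ((c ^ m : P) : G) ∈ zpowers z := by
          refine h.cen _ (c ^ m).2 ?_ ?_
          · rw [← Subgroup.coe_pow, hm3, Subgroup.coe_one]
          · intro y hy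
            have h6 : (⟨y, hy⟩ : P) * c ^ m = c ^ m * ⟨y, hy⟩ := (Commute.pow_right (hcc ⟨y, hy⟩) m).eq
            exact congrArg Subtype.val h6
        have h6 : ((c ^ m : P) : G) ∈ H := by
          have h7 : c ^ m ∈ K := pow_mem hcK m
          exact (mem_inf.1 (mem_subgroupOf.1 h7)).1
        -- `z` is a power of it
        have h7 : z ∈ zpowers ((c ^ m : P) : G) := by
          have hz3 : orderOf z = 3 := orderOf_eq_prime h.z3 h.z1
          have h8 : Nat.card (zpowers z) = 3 := by rw [Nat.card_zpowers, hz3]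
          have h9 : (⟨((c ^ m : P) : G), h5⟩ : zpowers z) ≠ 1 := by
            intro h10
            apply hm1
            have h13 : ((c ^ m : P) : G) = 1 := congrArg (fun x : zpowers z => (x : G)) h10
            exact Subtype.ext h13
          have h11 := zpowers_eq_top_of_prime_card h8 h9
          have h12 : (⟨z, mem_zpowers z⟩ : zpowers z) ∈ zpowers (⟨((c ^ m : P) : G), h5⟩ : zpowers z) := by
            rw [h11]; exact mem_top _
          obtain ⟨k, hk⟩ := h12
          exact ⟨k, congrArg Subtype.val hk⟩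
        exact hz ((zpowers_le.2 h6) h7)
      have h4 : Nat.card ↥(H ⊓ P) ≤ 3 := by
        have h5 := card_inf_mul A (H ⊓ P)
        have h6 : A ⊓ (H ⊓ P) = ⊥ := by
          rw [eq_bot_iff, ← hK]
          exact le_inf (inf_le_right.trans inf_le_left) inf_le_left
        rw [h6, Subgroup.card_bot, one_mul] at h5
        rw [← h5, ← h.idx]
        refine relIndex_le_of_le_right inf_le_right ?_
        rw [h.idx]; norm_num
      have h5 : 27 ≤ Nat.card A := Nat.le_of_dvd hA0 h.card
      have h6 : 3 * Nat.card A ≤ 3 * H.relIndex P := by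
        rw [hPA, ← hP]
        exact Nat.mul_le_mul_right _ h4
      omega
  rw [hn] at hge ⊢
  exact pow_dvd_of_le (k := 3) hge

end Cfsg.Agent.H743.HT
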