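import Cfsg.Agent.H743.HT.Div
import Cfsg.Agent.Blocks.Local
import Cfsg.Agent.Blocks.LocalRing
import Cfsg.Agent.Blocks.OrbitSum

/-!
# S4933, theorem M: the left side (helper743)
-/

set_option autoImplicit false
set_option linter.unusedSectionVars false

open Subgroup Cfsg
open Cfsg.Agent.Blocks.LocalRing

namespace Cfsg.Agent.H743.HT

universe u

variable {G : Type u} [Group G]

open Classical in
/-- a linear character of `C`, extended by zero -/
noncomputable def mu (C : Subgroup G) (lam : C →* ℂˣ) (x : G) : ℂ := if h : x ∈ C then ((lam ⟨x, h⟩ : ℂˣ) : ℂ) else 0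

theorem mu_of_mem {C : Subgroup G} (lam : C →* ℂˣ) {x : G} (h : x ∈ C) : mu C lam x = ((lam ⟨x, h⟩ : ℂˣ) : ℂ) := by
  unfold mu
  rw [dif_pos h]

theorem mu_of_notMem {C : Subgroup G} (lam : C →* ℂˣ) {x : G} (h : x ∉ C) : mu C lam x = 0 := by
  unfold mu
  rw [dif_neg h]

theorem mu_mul {C : Subgroup G} (lam : C →* ℂˣ) (y : G) {x : G} (hx : x ∈ C) :
    mu C lam (y * x) = mu C lam y * ((lam ⟨x, hx⟩ : ℂˣ) : ℂ) := by
  by_cases hy : y ∈ C
  · rw [mu_of_mem lam (C.mul_mem hy hx), mu_of_mem lam hy, ← Units.val_mul, ← map_mul]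
    rfl
  · rw [mu_of_notMem lam hy, mu_of_notMem lam (fun h => hy ?_), zero_mul]
    have := C.mul_mem h (C.inv_mem hx)
    rwa [mul_inv_cancel_right] at this

theorem mu_one_conj {C : Subgroup G} {a : G} (ha : ∀ x, a * x * a⁻¹ ∈ C ↔ x ∈ C) (x : G) :
    mu C 1 (a * x * a⁻¹) = mu C 1 x := by
  by_cases hx : x ∈ C
  · rw [mu_of_mem _ hx, mu_of_mem _ ((ha x).2 hx)]
    rfl
  · rw [mu_of_notMem _ hx, mu_of_notMem _ (fun h => hx ((ha x).1 h))]

theorem mu_conj_of_comm {C : Subgroup G} (lam : C →* ℂˣ) {a : G} (ha : a ∈ C) (hac : ∀ x ∈ C, a * x = x * a) (x : G) :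
    mu C lam (a * x * a⁻¹) = mu C lam x := by
  by_cases hx : x ∈ C
  · rw [hac x hx, mul_inv_cancel_right]
  · rw [mu_of_notMem _ hx, mu_of_notMem]
    intro h
    apply hx
    have := C.mul_mem (C.mul_mem (C.inv_mem ha) h) ha
    rwa [show a⁻¹ * (a * x * a⁻¹) * a = x by group] at this

/-- the weight of a triple -/
noncomputable def wt (c : G → ℂ) (C : Subgroup G) (lam : C →* ℂˣ) (t : G × G × G) : ℂ :=
  c t.1 * (mu C lam (t.1 * t.2.1 * t.2.2) - mu C lam (t.1 * t.2.1) - mu C lam (t.1 * t.2.2) + mu C lam t.1)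

theorem wt_conj (c : G → ℂ) (hc : ∀ x g, c (x * g * x⁻¹) = c g) (C : Subgroup G) (lam : C →* ℂˣ) {a : G}
    (ha : ∀ x, mu C lam (a * x * a⁻¹) = mu C lam x) (t : G × G × G) : wt c C lam (cj a t) = wt c C lam t := by
  unfold wt cj
  simp only
  rw [hc, ← ha (t.1 * t.2.1 * t.2.2), ← ha (t.1 * t.2.1), ← ha (t.1 * t.2.2), ← ha t.1]
  rw [show a * (t.1 * t.2.1 * t.2.2) * a⁻¹ = a * t.1 * a⁻¹ * (a * t.2.1 * a⁻¹) * (a * t.2.2 * a⁻¹) by group,
    show a * (t.1 * t.2.1) * a⁻¹ = a * t.1 * a⁻¹ * (a * t.2.1 * a⁻¹) by group,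
    show a * (t.1 * t.2.2) * a⁻¹ = a * t.1 * a⁻¹ * (a * t.2.2 * a⁻¹) by group]

variable {M : Ideal AlgInt}

/-- the local ideal as an additive group -/
def idl (hM : IsPModular 3 M) : AddSubgroup ℂ where
  carrier := {z | MemLocalIdeal M z}
  add_mem' := memLocalIdeal_add hM
  zero_mem' := memLocalIdeal_zero hM
  neg_mem' := memLocalIdeal_neg

theorem mem_idl (hM : IsPModular 3 M) {z : ℂ} : z ∈ idl hM ↔ MemLocalIdeal M z := Iff.rfl

theorem mu_ring (hM : IsPModular 3 M) {C : Subgroup G} (lam : C →* ℂˣ)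
    (hl : ∀ x : C, MemLocalIdeal M (((lam x : ℂˣ) : ℂ) - 1)) (x : G) :
    MemLocalRing M (mu C lam x) ∧ MemLocalIdeal M (mu C lam x - mu C 1 x) := by
  by_cases hx : x ∈ C
  · rw [mu_of_mem _ hx, mu_of_mem _ hx]
    have h1 : (((1 : C →* ℂˣ) ⟨x, hx⟩ : ℂˣ) : ℂ) = 1 := rfl
    rw [h1]
    refine ⟨?_, hl _⟩
    have := memLocalRing_add hM (memLocalIdeal_memLocalRing (hl ⟨x, hx⟩)) (memLocalRing_one hM)
    rwa [sub_add_cancel] at this
  · rw [mu_of_notMem _ hx, mu_of_notMem _ hx, sub_zero]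
    exact ⟨memLocalRing_zero hM, memLocalIdeal_zero hM⟩

theorem wt_ring (hM : IsPModular 3 M) {c : G → ℂ} (hcR : ∀ g, MemLocalRing M (c g)) {C : Subgroup G} (lam : C →* ℂˣ)
    (hl : ∀ x : C, MemLocalIdeal M (((lam x : ℂˣ) : ℂ) - 1)) (t : G × G × G) :
    MemLocalRing M (wt c C lam t) ∧ MemLocalIdeal M (wt c C lam t - wt c C 1 t) := by
  have h1 := mu_ring hM lam hl (t.1 * t.2.1 * t.2.2)
  have h2 := mu_ring hM lam hl (t.1 * t.2.1)
  have h3 := mu_ring hM lam hl (t.1 * t.2.2)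
  have h4 := mu_ring hM lam hl t.1
  constructor
  · exact memLocalRing_mul hM (hcR _) (memLocalRing_add hM (memLocalRing_sub hM (memLocalRing_sub hM h1.1 h2.1) h3.1) h4.1)
  · have h5 := memLocalIdeal_mul_left hM (hcR t.1)
      (memLocalIdeal_add hM (memLocalIdeal_sub hM (memLocalIdeal_sub hM h1.2 h2.2) h3.2) h4.2)
    unfold wt
    convert h5 using 1
    ring

/-- the set of the weights used: the last two entries in `D`, and `Z` -/
noncomputable def ww (c : G → ℂ) (C : Subgroup G) (lam : C →* ℂˣ) (D : Finset G) (Q : G × G × G → Prop) (t : G × G × G) :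
    ℂ := by
  classical
  exact if t.2.1 ∈ D ∧ t.2.2 ∈ D ∧ Q t then wt c C lam t else 0

theorem ww_pos {c : G → ℂ} {C : Subgroup G} {lam : C →* ℂˣ} {D : Finset G} {Q : G × G × G → Prop} {t : G × G × G}
    (h : t.2.1 ∈ D ∧ t.2.2 ∈ D ∧ Q t) : ww c C lam D Q t = wt c C lam t := by
  unfold ww
  rw [if_pos h]

theorem ww_neg {c : G → ℂ} {C : Subgroup G} {lam : C →* ℂˣ} {D : Finset G} {Q : G × G × G → Prop} {t : G × G × G}
    (h : ¬ (t.2.1 ∈ D ∧ t.2.2 ∈ D ∧ Q t)) : ww c C lam D Q t = 0 := by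
  unfold ww
  rw [if_neg h]

theorem ww_conj {c : G → ℂ} (hc : ∀ x g, c (x * g * x⁻¹) = c g) {C : Subgroup G} {lam : C →* ℂˣ} {D : Finset G}
    {Q : G × G × G → Prop} {a : G} (ha : ∀ x, mu C lam (a * x * a⁻¹) = mu C lam x)
    (hD : ∀ d, a * d * a⁻¹ ∈ D ↔ d ∈ D) (hQ : ∀ t, Q (cj a t) ↔ Q t) (t : G × G × G) :
    ww c C lam D Q (cj a t) = ww c C lam D Q t := by
  by_cases h : t.2.1 ∈ D ∧ t.2.2 ∈ D ∧ Q t
  · rw [ww_pos h, ww_pos, wt_conj c hc C lam ha]
    exact ⟨(hD _).2 h.1, (hD _).2 h.2.1, (hQ _).2 h.2.2⟩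
  · rw [ww_neg h, ww_neg]
    rintro ⟨h1, h2, h3⟩
    exact h ⟨(hD _).1 h1, (hD _).1 h2, (hQ _).1 h3⟩

/-- **the part outside the centralizer of `z`** -/
theorem sum_out [Fintype G] (hM : IsPModular 3 M) {P A : Subgroup G} {z : G} (h : Hyp P A z) {c : G → ℂ}
    (hc : ∀ x g, c (x * g * x⁻¹) = c g) (hcR : ∀ g, MemLocalRing M (c g)) (lam : centralizer (A : Set G) →* ℂˣ)
    (hl : ∀ x, MemLocalIdeal M (((lam x : ℂˣ) : ℂ) - 1)) {D : Finset G} (hD : ∀ x ∈ P, ∀ d ∈ D, x * d * x⁻¹ ∈ D) :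
    ∃ y, MemLocalIdeal M y ∧ ∑ t, ww c (centralizer (A : Set G)) lam D (fun t => z ∉ Zt t) t = 9 * y := by
  have hDi : ∀ x ∈ P, ∀ d, x * d * x⁻¹ ∈ D ↔ d ∈ D := by
    intro x hx d
    refine ⟨fun h1 => ?_, hD x hx d⟩
    have := hD x⁻¹ (P.inv_mem hx) _ h1
    rwa [show x⁻¹ * (x * d * x⁻¹) * x⁻¹⁻¹ = d by group] at this
  have hQ : ∀ x ∈ P, ∀ t, z ∉ Zt (cj x t) ↔ z ∉ Zt t := by
    intro x hx t
    have hz : x * z * x⁻¹ = z := by rw [h.zc x hx, mul_inv_cancel_right]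
    rw [not_iff_not, ← cj_eq_iff, ← cj_eq_iff]
    have e : cj z (cj x t) = cj x (cj z t) := by
      have h1 : ∀ y, z * (x * y * x⁻¹) * z⁻¹ = x * (z * y * z⁻¹) * x⁻¹ := by
        intro y
        have h2 := h.zc x hx
        calc z * (x * y * x⁻¹) * z⁻¹ = (z * x) * y * (z * x)⁻¹ := by group
          _ = (x * z) * y * (x * z)⁻¹ := by rw [h2]
          _ = _ := by group
      unfold cj
      simp only [h1]
    rw [e]
    constructor
    · intro h1
      have h2 : cj x⁻¹ (cj x (cj z t)) = cj x⁻¹ (cj x t) := by rw [h1]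
      have h3 : ∀ s, cj x⁻¹ (cj x s) = s := by
        intro s
        unfold cj
        simp only
        refine Prod.ext ?_ (Prod.ext ?_ ?_)
        · simp only; group
        · simp only; group
        · simp only; group
      rwa [h3, h3] at h2
    · intro h1
      rw [h1]
  have hC : ∀ x ∈ P, ∀ y, x * y * x⁻¹ ∈ centralizer (A : Set G) ↔ y ∈ centralizer (A : Set G) := by
    have hh : ∀ x ∈ P, ∀ y ∈ centralizer (A : Set G), x * y * x⁻¹ ∈ centralizer (A : Set G) := by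
      intro x hx y hy
      rw [mem_centralizer_iff] at hy ⊢
      intro a ha
      have h1 := h.nor x⁻¹ (P.inv_mem hx) a ha
      rw [inv_inv] at h1
      have h2 := hy _ h1
      calc a * (x * y * x⁻¹) = x * ((x⁻¹ * a * x) * y) * x⁻¹ := by group
        _ = x * (y * (x⁻¹ * a * x)) * x⁻¹ := by rw [h2]
        _ = _ := by group
    intro x hx y
    refine ⟨fun h1 => ?_, hh x hx y⟩
    have := hh x⁻¹ (P.inv_mem hx) _ h1
    rwa [show x⁻¹ * (x * y * x⁻¹) * x⁻¹⁻¹ = y by group] at this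
  have hAC : ∀ a ∈ A, a ∈ centralizer (A : Set G) := by
    intro a ha
    rw [mem_centralizer_iff]
    intro b hb
    exact h.ab b hb a ha
  have hl1 : ∀ x : centralizer (A : Set G), MemLocalIdeal M ((((1 : centralizer (A : Set G) →* ℂˣ) x : ℂˣ) : ℂ) - 1) := by
    intro x
    rw [MonoidHom.one_apply, Units.val_one, sub_self]
    exact memLocalIdeal_zero hM
  obtain ⟨y1, hy1, e1⟩ := sum_mem_conj A (idl hM)
    (fun t => ww c (centralizer (A : Set G)) lam D (fun t => z ∉ Zt t) t -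
      ww c (centralizer (A : Set G)) 1 D (fun t => z ∉ Zt t) t)
    (by
      intro a ha t
      rw [ww_conj hc (mu_conj_of_comm lam (hAC a ha) (fun x hx => (mem_centralizer_iff.1 hx) a ha)) (hDi a (h.le ha))
        (hQ a (h.le ha)), ww_conj hc (mu_one_conj (hC a (h.le ha))) (hDi a (h.le ha)) (hQ a (h.le ha))])
    (by
      intro t
      by_cases ht : t.2.1 ∈ D ∧ t.2.2 ∈ D ∧ z ∉ Zt t
      · rw [ww_pos ht, ww_pos ht]
        exact (wt_ring hM hcR lam hl t).2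
      · rw [ww_neg ht, ww_neg ht, sub_zero]
        exact (idl hM).zero_mem) 9
    (by
      intro t ht
      refine h.nine_dvd fun hz => ht ?_
      have hh : ¬ (t.2.1 ∈ D ∧ t.2.2 ∈ D ∧ z ∉ Zt t) := fun h => h.2.2 hz
      rw [ww_neg hh, ww_neg hh, sub_zero])
  obtain ⟨y2, hy2, e2⟩ := sum_mem_conj P (locRing hM).toAddSubgroup
    (ww c (centralizer (A : Set G)) 1 D (fun t => z ∉ Zt t))
    (fun a ha t => ww_conj hc (mu_one_conj (hC a ha)) (hDi a ha) (hQ a ha) t)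
    (by
      intro t
      by_cases ht : t.2.1 ∈ D ∧ t.2.2 ∈ D ∧ z ∉ Zt t
      · rw [ww_pos ht]
        exact (wt_ring hM hcR 1 hl1 t).1
      · rw [ww_neg ht]
        exact AddSubgroup.zero_mem _) 27
    (by
      intro t ht
      refine h.twentyseven_dvd fun hz => ht ?_
      have hh : ¬ (t.2.1 ∈ D ∧ t.2.2 ∈ D ∧ z ∉ Zt t) := fun h => h.2.2 hz
      rw [ww_neg hh])
  refine ⟨y1 + 3 * y2, memLocalIdeal_add hM hy1 (memLocalIdeal_mul_right hM ?_ hy2), ?_⟩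
  · have := (memLocalIdeal_natCast_iff hM 3).2 dvd_rfl
    simpa using this
  · rw [Finset.sum_sub_distrib, e2] at e1
    rw [sub_eq_iff_eq_add] at e1
    rw [e1]
    push_cast
    ring

end Cfsg.Agent.H743.HT
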