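import Cfsg.Agent.H743.HT.Left

/-!
# S4933, theorem M: the left side, the part inside the centralizer of `z` (helper743)
-/

set_option autoImplicit false
set_option linter.unusedSectionVars false

open Subgroup Cfsg
open Cfsg.Agent.Blocks.LocalRing

namespace Cfsg.Agent.H743.HT

universe u

variable {G : Type u} [Group G]

/-- the elements of `D` commuting with `z` -/
noncomputable def Dz (D : Finset G) (z : G) : Finset G :=
  @Finset.filter G (fun d => z * d = d * z) (Classical.decPred _) D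

theorem mem_Dz {D : Finset G} {z d : G} : d ∈ Dz D z ↔ d ∈ D ∧ z * d = d * z := by
  unfold Dz
  exact @Finset.mem_filter _ _ (Classical.decPred _) _ _

/-- the conditions on `D` -/
structure HypD (D : Finset G) (z : G) : Prop where
  z1 : z ≠ 1
  z3 : z ^ 3 = 1
  one : (1 : G) ∉ D
  zm : z ∈ D
  zi : z⁻¹ ∈ D
  mul : ∀ d ∈ D, z * d = d * z → d ≠ z → d ≠ z⁻¹ → d * z ∈ D

variable {C : Subgroup G} {lam : C →* ℂˣ} {D : Finset G} {z : G}

theorem zz {z : G} (h3 : z ^ 3 = 1) : z * z = z⁻¹ := by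
  rw [eq_inv_iff_mul_eq_one, ← h3, pow_succ, pow_two]

theorem HypD.ne (h : HypD D z) : z ≠ z⁻¹ := by
  intro h1
  apply h.z1
  have h2 := zz h.z3
  rw [← h1] at h2
  exact mul_eq_left.1 h2

/-- the sum over the commuting part of `D` -/
theorem sum_Dz (h : HypD D z) (hz : z ∈ C) (hl3 : ((lam ⟨z, hz⟩ : ℂˣ) : ℂ) ≠ 1) (y : G) :
    ∑ d ∈ Dz D z, mu C lam (y * d) = - mu C lam y := by
  classical
  set l : ℂ := ((lam ⟨z, hz⟩ : ℂˣ) : ℂ) with hl
  have hl33 : l ^ 3 = 1 := by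
    have h1 : (⟨z, hz⟩ : C) ^ 3 = 1 := Subtype.ext h.z3
    rw [hl, ← Units.val_pow_eq_pow_val, ← map_pow, h1, map_one, Units.val_one]
  set D' := (Dz D z).filter fun d => d ≠ z ∧ d ≠ z⁻¹ with hD'
  have hDz : Dz D z = insert z (insert z⁻¹ D') := by
    ext d
    rw [Finset.mem_insert, Finset.mem_insert, hD', Finset.mem_filter, mem_Dz]
    constructor
    · intro h1
      by_cases h2 : d = z
      · exact Or.inl h2
      · by_cases h3 : d = z⁻¹
        · exact Or.inr (Or.inl h3)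
        · exact Or.inr (Or.inr ⟨h1, h2, h3⟩)
    · rintro (rfl | rfl | h1)
      · exact ⟨h.zm, rfl⟩
      · exact ⟨h.zi, by group⟩
      · exact h1.1
  have hz1 : z ∉ insert z⁻¹ D' := by
    rw [Finset.mem_insert, hD', Finset.mem_filter]
    rintro (h1 | h1)
    · exact h.ne h1
    · exact h1.2.1 rfl
  have hz2 : z⁻¹ ∉ D' := by
    rw [hD', Finset.mem_filter]
    exact fun h1 => h1.2.2 rfl
  have hstab : ∀ d ∈ D', d * z ∈ D' := by
    intro d hd
    rw [hD', Finset.mem_filter, mem_Dz] at hd ⊢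
    obtain ⟨⟨h1, h2⟩, h3, h4⟩ := hd
    refine ⟨⟨h.mul d h1 h2 h3 h4, by rw [← mul_assoc, h2]⟩, ?_, ?_⟩
    · intro h5
      exact h.one (by rw [← mul_eq_right.1 h5]; exact h1)
    · intro h5
      rw [← zz h.z3] at h5
      exact h3 (mul_right_cancel h5)
  have hD0 : ∑ d ∈ D', mu C lam (y * d) = 0 := by
    have h1 : ∑ d ∈ D', mu C lam (y * (d * z)) = ∑ d ∈ D', mu C lam (y * d) := by
      have hinj : Set.InjOn (fun d : G => d * z) D' := fun a _ b _ hab => mul_right_cancel hab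
      have himg : D'.image (fun d : G => d * z) = D' := by
        refine Finset.eq_of_subset_of_card_le (Finset.image_subset_iff.2 hstab) ?_
        rw [Finset.card_image_of_injOn hinj]
      rw [← Finset.sum_image (f := fun d => mu C lam (y * d)) hinj, himg]
    have h2 : ∑ d ∈ D', mu C lam (y * (d * z)) = l * ∑ d ∈ D', mu C lam (y * d) := by
      rw [Finset.mul_sum]
      refine Finset.sum_congr rfl fun d _ => ?_
      rw [← mul_assoc, mu_mul lam _ hz, mul_comm]
    rw [h1] at h2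
    have h3 : (l - 1) * ∑ d ∈ D', mu C lam (y * d) = 0 := by linear_combination -h2
    rcases mul_eq_zero.1 h3 with h4 | h4
    · exact absurd (sub_eq_zero.1 h4) hl3
    · exact h4
  have e2 : mu C lam (y * z⁻¹) = mu C lam y * l * l := by
    rw [← zz h.z3, ← mul_assoc, mu_mul lam _ hz, mu_mul lam _ hz]
  rw [hDz, Finset.sum_insert hz1, Finset.sum_insert hz2, hD0, add_zero, e2, mu_mul lam _ hz, ← hl]
  have h5 : l ^ 2 + l + 1 = 0 := by
    have h6 : (l - 1) * (l ^ 2 + l + 1) = 0 := by linear_combination hl33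
    rcases mul_eq_zero.1 h6 with h7 | h7
    · exact absurd (sub_eq_zero.1 h7) hl3
    · exact h7
  linear_combination mu C lam y * h5

/-- **the part inside the centralizer of `z`** -/
theorem sum_in [Fintype G] (h : HypD D z) (hz : z ∈ C) (hl3 : ((lam ⟨z, hz⟩ : ℂˣ) : ℂ) ≠ 1)
    (hzC : ∀ x ∈ C, z * x = x * z) (c : G → ℂ) :
    ∑ t, ww c C lam D (fun t => z ∈ Zt t) t = (1 + ((Dz D z).card : ℂ)) ^ 2 * ∑ g, c g * mu C lam g := by
  classical
  rw [Fintype.sum_prod_type, Finset.mul_sum]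
  refine Finset.sum_congr rfl fun g _ => ?_
  rw [Fintype.sum_prod_type]
  by_cases hg : z * g = g * z
  · have h1 : ∀ d e : G, ww c C lam D (fun t => z ∈ Zt t) (g, d, e) =
        if d ∈ Dz D z then (if e ∈ Dz D z then wt c C lam (g, d, e) else 0) else 0 := by
      intro d e
      by_cases hd : d ∈ Dz D z
      · by_cases he : e ∈ Dz D z
        · rw [if_pos hd, if_pos he, ww_pos]
          rw [mem_Dz] at hd he
          exact ⟨hd.1, he.1, mem_Zt.2 ⟨hg, hd.2, he.2⟩⟩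
        · rw [if_pos hd, if_neg he, ww_neg]
          rintro ⟨h2, h3, h4⟩
          exact he (mem_Dz.2 ⟨h3, (mem_Zt.1 h4).2.2⟩)
      · rw [if_neg hd, ww_neg]
        rintro ⟨h2, h3, h4⟩
        exact hd (mem_Dz.2 ⟨h2, (mem_Zt.1 h4).2.1⟩)
    have h2 : ∀ d : G, ∑ e, ww c C lam D (fun t => z ∈ Zt t) (g, d, e) =
        if d ∈ Dz D z then ∑ e ∈ Dz D z, wt c C lam (g, d, e) else 0 := by
      intro d
      by_cases hd : d ∈ Dz D z
      · simp only [h1, if_pos hd]
        rw [Finset.sum_ite_mem, Finset.univ_inter]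
      · simp only [h1, if_neg hd]
        rw [Finset.sum_const_zero]
    simp only [h2]
    rw [Finset.sum_ite_mem, Finset.univ_inter]
    unfold wt
    simp only [← Finset.mul_sum, Finset.sum_add_distrib, Finset.sum_sub_distrib, sum_Dz h hz hl3, Finset.sum_const,
      Finset.sum_neg_distrib, nsmul_eq_mul]
    ring
  · have h1 : mu C lam g = 0 := mu_of_notMem lam fun h2 => hg (hzC g h2)
    rw [h1, mul_zero, mul_zero]
    refine Finset.sum_eq_zero fun d _ => Finset.sum_eq_zero fun e _ => ?_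
    rw [ww_neg]
    rintro ⟨h2, h3, h4⟩
    exact hg (mem_Zt.1 h4).1

/-- `∑ c μ = 1` modulo the ideal -/
theorem kappa [Fintype G] {M : Ideal AlgInt} (hM : IsPModular 3 M) {A : Subgroup G} (hA : IsPGroup 3 A) {c : G → ℂ}
    (hc : ∀ x g, c (x * g * x⁻¹) = c g) (hcR : ∀ g, MemLocalRing M (c g)) (hc0 : ∀ g, 3 ∣ orderOf g → c g = 0)
    (hs : ∑ g, c g = 1) (lam : centralizer (A : Set G) →* ℂˣ)
    (hl : ∀ x : centralizer (A : Set G), ¬ 3 ∣ orderOf (x : G) → lam x = 1) :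
    MemLocalIdeal M (∑ g, c g * mu (centralizer (A : Set G)) lam g - 1) := by
  classical
  have : Fact (Nat.Prime 3) := ⟨Nat.prime_three⟩
  have h1 : ∀ g, c g * mu (centralizer (A : Set G)) lam g = if g ∈ centralizer (A : Set G) then c g else 0 := by
    intro g
    by_cases hg : g ∈ centralizer (A : Set G)
    · rw [if_pos hg, mu_of_mem lam hg]
      by_cases h3 : 3 ∣ orderOf g
      · rw [hc0 g h3, zero_mul]
      · rw [hl ⟨g, hg⟩ h3, Units.val_one, mul_one]
    · rw [if_neg hg, mu_of_notMem lam hg, mul_zero]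
  simp only [h1]
  rw [← Finset.sum_filter]
  let f : G → locRing hM := fun g => ⟨c g, hcR g⟩
  obtain ⟨a, ha⟩ := Cfsg.Agent.Blocks.OrbitSum.sum_eq_sum_centralizer_add_smul A hA f
    (fun u _ x => Subtype.ext (hc u x))
  have h2 := congrArg (Subtype.val) ha
  rw [AddSubmonoidClass.coe_finsetSum] at h2
  change ∑ x, c x = _ at h2
  rw [hs, Subring.coe_add, AddSubmonoidClass.coe_finsetSum] at h2
  change 1 = ∑ x ∈ _, c x + ((3 • a : locRing hM) : ℂ) at h2
  have h3 : ∑ x ∈ Finset.univ.filter (· ∈ centralizer (A : Set G)), c x - 1 = - ((3 • a : locRing hM) : ℂ) := by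
    rw [h2]; ring
  rw [h3]
  refine memLocalIdeal_neg ?_
  rw [nsmul_eq_mul]
  change MemLocalIdeal M (((3 : ℕ) : locRing hM) * a : locRing hM)
  rw [Subring.coe_mul]
  refine memLocalIdeal_mul_right hM ?_ a.2
  rw [show (((3 : ℕ) : locRing hM) : ℂ) = ((3 : ℕ) : ℂ) from map_natCast (locRing hM).subtype 3]
  exact (memLocalIdeal_natCast_iff hM 3).2 dvd_rfl

/-- the sum of all the weights -/
noncomputable def LL [Fintype G] (c : G → ℂ) (C : Subgroup G) (lam : C →* ℂˣ) (D : Finset G) : ℂ :=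
  ∑ t, ww c C lam D (fun _ => True) t

/-- **the left side** -/
theorem left [Fintype G] {M : Ideal AlgInt} (hM : IsPModular 3 M) {P A : Subgroup G} (h : Hyp P A z) (hD : HypD D z)
    (hDc : ∀ x ∈ P, ∀ d ∈ D, x * d * x⁻¹ ∈ D) {c : G → ℂ} (hc : ∀ x g, c (x * g * x⁻¹) = c g)
    (hcR : ∀ g, MemLocalRing M (c g)) (hc0 : ∀ g, 3 ∣ orderOf g → c g = 0) (hs : ∑ g, c g = 1)
    (lam : centralizer (A : Set G) →* ℂˣ) (hl : ∀ x : centralizer (A : Set G), ¬ 3 ∣ orderOf (x : G) → lam x = 1)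
    (hlM : ∀ x, MemLocalIdeal M (((lam x : ℂˣ) : ℂ) - 1)) (hz : z ∈ centralizer (A : Set G))
    (hl3 : lam ⟨z, hz⟩ ≠ 1) {j : ℕ} (hj : 1 + (Dz D z).card = 3 * j) (hj3 : ¬ 3 ∣ j) :
    ¬ MemLocalIdeal M (LL c (centralizer (A : Set G)) lam D / 9) := by
  classical
  intro hcon
  have h1 : LL c (centralizer (A : Set G)) lam D =
      ∑ t, ww c (centralizer (A : Set G)) lam D (fun t => z ∉ Zt t) t +
        ∑ t, ww c (centralizer (A : Set G)) lam D (fun t => z ∈ Zt t) t := by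
    unfold LL
    rw [← Finset.sum_add_distrib]
    refine Finset.sum_congr rfl fun t _ => ?_
    by_cases ht : t.2.1 ∈ D ∧ t.2.2 ∈ D
    · rw [ww_pos (Q := fun _ => True) ⟨ht.1, ht.2, trivial⟩]
      by_cases hzt : z ∈ Zt t
      · rw [ww_neg (Q := fun t => z ∉ Zt t) (fun h => h.2.2 hzt), ww_pos (Q := fun t => z ∈ Zt t) ⟨ht.1, ht.2, hzt⟩,
          zero_add]
      · rw [ww_pos (Q := fun t => z ∉ Zt t) ⟨ht.1, ht.2, hzt⟩, ww_neg (Q := fun t => z ∈ Zt t) (fun h => hzt h.2.2),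
          add_zero]
    · rw [ww_neg (fun h => ht ⟨h.1, h.2.1⟩), ww_neg (fun h => ht ⟨h.1, h.2.1⟩), ww_neg (fun h => ht ⟨h.1, h.2.1⟩),
        add_zero]
  have hzC : ∀ x ∈ centralizer (A : Set G), z * x = x * z := fun x hx => (mem_centralizer_iff.1 hx) z h.zA
  obtain ⟨y, hy, e⟩ := sum_out hM h hc hcR lam hlM hDc
  have hl3' : ((lam ⟨z, hz⟩ : ℂˣ) : ℂ) ≠ 1 := fun h1 => hl3 (Units.ext h1)
  have hk := kappa hM h.pA hc hcR hc0 hs lam hl
  set κ := ∑ g, c g * mu (centralizer (A : Set G)) lam g with hκ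
  have h2 := sum_in hD hz hl3' hzC c
  rw [← hκ] at h2
  rw [e, h2] at h1
  have h3 : (1 + ((Dz D z).card : ℂ)) = 3 * j := by exact_mod_cast hj
  rw [h3] at h1
  have h4 : LL c (centralizer (A : Set G)) lam D / 9 = y + (j : ℂ) ^ 2 * (κ - 1) + (j : ℂ) ^ 2 := by
    rw [h1]; ring
  rw [h4] at hcon
  have h5 : MemLocalIdeal M (y + (j : ℂ) ^ 2 * (κ - 1)) :=
    memLocalIdeal_add hM hy (memLocalIdeal_mul_left hM (memLocalRing_pow hM (memLocalRing_natCast hM j) 2) hk)
  have h6 := memLocalIdeal_sub hM hcon h5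
  rw [add_sub_cancel_left] at h6
  have h7 : ((j : ℂ) ^ 2) = ((j ^ 2 : ℕ) : ℂ) := by push_cast; ring
  rw [h7, memLocalIdeal_natCast_iff hM] at h6
  exact hj3 (Nat.prime_three.dvd_of_dvd_pow h6)

end Cfsg.Agent.H743.HT
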