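import Mathlib

/-!
# S4933, theorem M: sums over orbits (helper743)

`sum_mem_orb`  : an invariant weight with values in an additive group `I`, all orbits of size divisible by `N`: the sum is in `N I`.
`sum_mem_conj` : the same for a subgroup `A` acting by conjugation on triples, orbit sizes = indices of centralizers.
-/

set_option autoImplicit false

open Subgroup

namespace Cfsg.Agent.H743.HT

theorem sum_mem_orb {H X : Type*} [Group H] [MulAction H X] [Fintype X] (I : AddSubgroup ℂ) (w : X → ℂ)
    (hw : ∀ (h : H) (x : X), w (h • x) = w x) (hI : ∀ x, w x ∈ I) (N : ℕ)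
    (hN : ∀ x, w x ≠ 0 → N ∣ Nat.card (MulAction.orbit H x)) : ∃ y ∈ I, ∑ x, w x = N * y := by
  classical
  have : Fintype (MulAction.orbitRel.Quotient H X) := Fintype.ofFinite _
  have key : ∀ ω : MulAction.orbitRel.Quotient H X, ∃ y ∈ I,
      ∑ x ∈ Finset.univ.filter (fun x : X => (Quotient.mk'' x : MulAction.orbitRel.Quotient H X) = ω), w x = N * y := by
    intro ω
    obtain ⟨x0, rfl⟩ := Quotient.exists_rep ω
    have h1 : ∀ x ∈ Finset.univ.filter (fun x : X => (Quotient.mk'' x : MulAction.orbitRel.Quotient H X) =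
        Quotient.mk _ x0), w x = w x0 := by
      intro x hx
      rw [Finset.mem_filter] at hx
      have h2 : (MulAction.orbitRel H X) x x0 := Quotient.exact hx.2
      obtain ⟨h, rfl⟩ := h2
      exact hw h x0
    rw [Finset.sum_congr rfl h1, Finset.sum_const, nsmul_eq_mul]
    have h3 : (Finset.univ.filter (fun x : X => (Quotient.mk'' x : MulAction.orbitRel.Quotient H X) =
        Quotient.mk _ x0)).card = Nat.card (MulAction.orbit H x0) := by
      rw [Nat.card_coe_set_eq, ← Set.ncard_coe_finset]
      congr 1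
      ext x
      rw [Finset.mem_coe, Finset.mem_filter]
      simp only [Finset.mem_univ, true_and]
      constructor
      · intro hx
        exact (Quotient.exact hx : (MulAction.orbitRel H X) x x0)
      · intro hx
        exact Quotient.sound (s := MulAction.orbitRel H X) hx
    rw [h3]
    by_cases h0 : w x0 = 0
    · exact ⟨0, I.zero_mem, by rw [h0, mul_zero, mul_zero]⟩
    · obtain ⟨k, hk⟩ := hN x0 h0
      refine ⟨k * w x0, ?_, by rw [hk]; push_cast; ring⟩
      rw [← nsmul_eq_mul]
      exact I.nsmul_mem (hI x0) k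
  choose y hy hy2 using key
  refine ⟨∑ ω, y ω, I.sum_mem fun ω _ => hy ω, ?_⟩
  rw [← Finset.sum_fiberwise (s := Finset.univ)
    (g := fun x : X => (Quotient.mk'' x : MulAction.orbitRel.Quotient H X)) (f := w), Finset.mul_sum]
  exact Finset.sum_congr rfl fun ω _ => hy2 ω

variable {G : Type*} [Group G]

/-- conjugation of triples -/
def cj (a : G) (t : G × G × G) : G × G × G := (a * t.1 * a⁻¹, a * t.2.1 * a⁻¹, a * t.2.2 * a⁻¹)

/-- the centralizer of a triple -/
def Zt (t : G × G × G) : Subgroup G := centralizer {t.1, t.2.1, t.2.2}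

theorem mem_Zt {t : G × G × G} {a : G} : a ∈ Zt t ↔ a * t.1 = t.1 * a ∧ a * t.2.1 = t.2.1 * a ∧ a * t.2.2 = t.2.2 * a := by
  unfold Zt
  rw [mem_centralizer_iff]
  constructor
  · intro h
    exact ⟨(h _ (by simp)).symm, (h _ (by simp)).symm, (h _ (by simp)).symm⟩
  · rintro ⟨h1, h2, h3⟩ x hx
    simp only [Set.mem_insert_iff, Set.mem_singleton_iff] at hx
    rcases hx with rfl | rfl | rfl
    exacts [h1.symm, h2.symm, h3.symm]

theorem cj_eq_iff {t : G × G × G} {a : G} : cj a t = t ↔ a ∈ Zt t := by
  rw [mem_Zt]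
  unfold cj
  rw [Prod.ext_iff, Prod.ext_iff]
  simp only [mul_inv_eq_iff_eq_mul]

/-- a copy of the type of triples (no left multiplication action) -/
def TT (G : Type*) : Type _ := G × G × G

instance instTT (A : Subgroup G) : MulAction A (TT G) where
  smul a t := cj (a : G) t
  one_smul t := by
    change cj ((1 : A) : G) t = t
    unfold cj
    rw [OneMemClass.coe_one]
    simp only [one_mul, inv_one, mul_one]
    rfl
  mul_smul a b t := by
    change cj ((a * b : A) : G) t = cj (a : G) (cj (b : G) t)
    unfold cj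
    refine Prod.ext ?_ (Prod.ext ?_ ?_)
    · simp only [Subgroup.coe_mul]; group
    · simp only [Subgroup.coe_mul]; group
    · simp only [Subgroup.coe_mul]; group

theorem TT_smul (A : Subgroup G) (a : A) (t : TT G) : a • t = cj (a : G) t := rfl

theorem sum_mem_conj [Fintype G] (A : Subgroup G) (I : AddSubgroup ℂ) (w : G × G × G → ℂ)
    (hw : ∀ a ∈ A, ∀ t, w (cj a t) = w t) (hI : ∀ t, w t ∈ I) (N : ℕ)
    (hN : ∀ t, w t ≠ 0 → N ∣ (Zt t).relIndex A) : ∃ y ∈ I, ∑ t, w t = N * y := by
  classical
  let _ : Fintype (TT G) := inferInstanceAs (Fintype (G × G × G))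
  refine sum_mem_orb (H := A) (X := TT G) I w (fun a t => by rw [TT_smul]; exact hw a a.2 t) hI N fun t ht => ?_
  have h1 : MulAction.stabilizer A t = (Zt t).subgroupOf A := by
    ext a
    rw [MulAction.mem_stabilizer_iff, TT_smul, mem_subgroupOf]
    exact cj_eq_iff
  have h2 := hN t ht
  rw [relIndex, ← h1, MulAction.index_stabilizer] at h2
  rwa [Nat.card_coe_set_eq]

end Cfsg.Agent.H743.HT
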