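import Cfsg.Agent.H743.HT.Val2

/-!
# S4933, theorem M: the right side (helper743)

`LL_eq` : the sum of the weights in terms of the characters of the block;
`right` : if no character of the principal block has `v₃(χ(1)) = 1`, then `LL / 9` is in the local ideal.
-/

set_option autoImplicit false
set_option linter.unusedSectionVars false

open Subgroup Cfsg
open Cfsg.Agent.Blocks.LocalRing

namespace Cfsg.Agent.H743.HT

universe u

variable {G : Type u} [Group G]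

/-- the sum over the translates -/
theorem T_eq [Fintype G] (B : Finset (IrrCharacter G)) {c : G → ℂ}
    (hc : ∀ g, c g = (Nat.card G : ℂ)⁻¹ * ∑ χ ∈ B, (χ : G → ℂ) 1 * (χ : G → ℂ) g⁻¹) (m : G → ℂ) (y : G) :
    ∑ g, c g * m (g * y) = ∑ χ ∈ B, (Nat.card G : ℂ)⁻¹ * (χ : G → ℂ) 1 * ∑ x, m x * (χ : G → ℂ) (y * x⁻¹) := by
  classical
  have h1 : ∀ g, c g * m (g * y) = ∑ χ ∈ B, (Nat.card G : ℂ)⁻¹ * (χ : G → ℂ) 1 * (m (g * y) * (χ : G → ℂ) g⁻¹) := by
    intro g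
    rw [hc g, Finset.mul_sum, Finset.sum_mul]
    refine Finset.sum_congr rfl fun χ _ => ?_
    ring
  simp only [h1]
  rw [Finset.sum_comm]
  refine Finset.sum_congr rfl fun χ _ => ?_
  rw [← Finset.mul_sum]
  congr 1
  refine Fintype.sum_equiv (Equiv.mulRight y) _ _ fun g => ?_
  simp only [Equiv.coe_mulRight]
  rw [mul_inv_rev, mul_inv_cancel_left]

/-- the double sum of the values of one character -/
theorem double_sum {D : Finset G} {χ : G → ℂ} {w : ℂ} (hw : ∀ y, ∑ d ∈ D, χ (d * y) = w * χ y) (x : G) :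
    ∑ d ∈ D, ∑ e ∈ D, (χ (d * e * x) - χ (d * x) - χ (e * x) + χ x) = (w - D.card) ^ 2 * χ x := by
  have h1 : ∑ d ∈ D, ∑ e ∈ D, χ (d * e * x) = w ^ 2 * χ x := by
    rw [Finset.sum_comm]
    have h2 : ∀ e ∈ D, ∑ d ∈ D, χ (d * e * x) = w * χ (e * x) := by
      intro e _
      rw [← hw]
      exact Finset.sum_congr rfl fun d _ => by rw [mul_assoc]
    rw [Finset.sum_congr rfl h2, ← Finset.mul_sum, hw]
    ring
  simp only [Finset.sum_add_distrib, Finset.sum_sub_distrib, Finset.sum_const, nsmul_eq_mul, ← Finset.mul_sum, hw, h1]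
  ring

theorem sum_ww [Fintype G] (c : G → ℂ) (C : Subgroup G) (lam : C →* ℂˣ) (D : Finset G) :
    LL c C lam D = ∑ d ∈ D, ∑ e ∈ D, ∑ g, c g * (mu C lam (g * (d * e)) - mu C lam (g * d) - mu C lam (g * e) +
      mu C lam (g * 1)) := by
  classical
  unfold LL
  rw [Fintype.sum_prod_type]
  have h1 : ∀ g d e : G, ww c C lam D (fun _ => True) (g, d, e) =
      if d ∈ D then (if e ∈ D then wt c C lam (g, d, e) else 0) else 0 := by
    intro g d e
    by_cases hd : d ∈ D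
    · by_cases he : e ∈ D
      · rw [if_pos hd, if_pos he, ww_pos ⟨hd, he, trivial⟩]
      · rw [if_pos hd, if_neg he, ww_neg fun h => he h.2.1]
    · rw [if_neg hd, ww_neg fun h => hd h.1]
  have h2 : ∀ g d : G, ∑ e, ww c C lam D (fun _ => True) (g, d, e) =
      if d ∈ D then ∑ e ∈ D, wt c C lam (g, d, e) else 0 := by
    intro g d
    by_cases hd : d ∈ D
    · simp only [h1, if_pos hd]
      rw [Finset.sum_ite_mem, Finset.univ_inter]
    · simp only [h1, if_neg hd]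
      rw [Finset.sum_const_zero]
  have h3 : ∀ g : G, ∑ t : G × G, ww c C lam D (fun _ => True) (g, t) = ∑ d ∈ D, ∑ e ∈ D, wt c C lam (g, d, e) := by
    intro g
    rw [Fintype.sum_prod_type]
    simp only [h2]
    rw [Finset.sum_ite_mem, Finset.univ_inter]
  simp only [h3]
  rw [Finset.sum_comm]
  refine Finset.sum_congr rfl fun d _ => ?_
  rw [Finset.sum_comm]
  refine Finset.sum_congr rfl fun e _ => Finset.sum_congr rfl fun g _ => ?_
  unfold wt
  simp only [mul_one, mul_assoc]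

/-- **the formula for the sum of the weights** -/
theorem LL_eq [Fintype G] (B : Finset (IrrCharacter G)) {c : G → ℂ}
    (hc : ∀ g, c g = (Nat.card G : ℂ)⁻¹ * ∑ χ ∈ B, (χ : G → ℂ) 1 * (χ : G → ℂ) g⁻¹) (C : Subgroup G) (lam : C →* ℂˣ)
    {D : Finset G} (hD : ∀ x : G, ∀ d ∈ D, x * d * x⁻¹ ∈ D) :
    LL c C lam D = ∑ χ ∈ B, (Nat.card G : ℂ)⁻¹ * (χ : G → ℂ) 1 *
      ((∑ d ∈ D, (χ : G → ℂ) d) / (χ : G → ℂ) 1 - D.card) ^ 2 * ∑ x, mu C lam x * (χ : G → ℂ) x⁻¹ := by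
  classical
  rw [sum_ww]
  have h1 : ∀ d e : G, ∑ g, c g * (mu C lam (g * (d * e)) - mu C lam (g * d) - mu C lam (g * e) + mu C lam (g * 1)) =
      ∑ χ ∈ B, (Nat.card G : ℂ)⁻¹ * (χ : G → ℂ) 1 * ∑ x, mu C lam x *
        ((χ : G → ℂ) (d * e * x⁻¹) - (χ : G → ℂ) (d * x⁻¹) - (χ : G → ℂ) (e * x⁻¹) + (χ : G → ℂ) x⁻¹) := by
    intro d e
    have h2 : ∀ g, c g * (mu C lam (g * (d * e)) - mu C lam (g * d) - mu C lam (g * e) + mu C lam (g * 1)) =
        c g * mu C lam (g * (d * e)) - c g * mu C lam (g * d) - c g * mu C lam (g * e) + c g * mu C lam (g * 1) :=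
      fun g => by ring
    simp only [h2]
    rw [Finset.sum_add_distrib, Finset.sum_sub_distrib, Finset.sum_sub_distrib, T_eq B hc, T_eq B hc, T_eq B hc,
      T_eq B hc, ← Finset.sum_sub_distrib, ← Finset.sum_sub_distrib, ← Finset.sum_add_distrib]
    refine Finset.sum_congr rfl fun χ _ => ?_
    rw [← mul_sub, ← mul_sub, ← mul_add, ← Finset.sum_sub_distrib, ← Finset.sum_sub_distrib, ← Finset.sum_add_distrib]
    congr 1
    refine Finset.sum_congr rfl fun x _ => ?_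
    rw [one_mul]
    ring
  simp only [h1]
  have h3 : ∀ d ∈ D, ∑ e ∈ D, ∑ χ ∈ B, (Nat.card G : ℂ)⁻¹ * (χ : G → ℂ) 1 * ∑ x, mu C lam x *
        ((χ : G → ℂ) (d * e * x⁻¹) - (χ : G → ℂ) (d * x⁻¹) - (χ : G → ℂ) (e * x⁻¹) + (χ : G → ℂ) x⁻¹) =
      ∑ χ ∈ B, ∑ e ∈ D, (Nat.card G : ℂ)⁻¹ * (χ : G → ℂ) 1 * ∑ x, mu C lam x *
        ((χ : G → ℂ) (d * e * x⁻¹) - (χ : G → ℂ) (d * x⁻¹) - (χ : G → ℂ) (e * x⁻¹) + (χ : G → ℂ) x⁻¹) :=
    fun d _ => Finset.sum_comm
  rw [Finset.sum_congr rfl h3, Finset.sum_comm]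
  refine Finset.sum_congr rfl fun χ _ => ?_
  simp only [← Finset.mul_sum]
  rw [mul_assoc (_ * _)]
  congr 1
  have h4 : ∀ d ∈ D, ∑ e ∈ D, ∑ x, mu C lam x *
      ((χ : G → ℂ) (d * e * x⁻¹) - (χ : G → ℂ) (d * x⁻¹) - (χ : G → ℂ) (e * x⁻¹) + (χ : G → ℂ) x⁻¹) =
      ∑ x, mu C lam x * ∑ e ∈ D,
      ((χ : G → ℂ) (d * e * x⁻¹) - (χ : G → ℂ) (d * x⁻¹) - (χ : G → ℂ) (e * x⁻¹) + (χ : G → ℂ) x⁻¹) := by
    intro d _
    rw [Finset.sum_comm]
    exact Finset.sum_congr rfl fun x _ => by rw [Finset.mul_sum]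
  rw [Finset.sum_congr rfl h4, Finset.sum_comm, Finset.mul_sum]
  refine Finset.sum_congr rfl fun x _ => ?_
  rw [← Finset.mul_sum, double_sum (fun y => sum_mul hD χ.2 y)]
  ring

/-- the sum of `μ χ` is a multiple of `|C|` -/
theorem sum_mu [Fintype G] (C : Subgroup G) (lam : C →* ℂˣ) (χ : IrrCharacter G) :
    ∃ m : ℕ, ∑ x, mu C lam x * (χ : G → ℂ) x⁻¹ = Nat.card C * m := by
  classical
  have : Fintype C := Fintype.ofFinite C
  obtain ⟨m, hm⟩ := Characters.Core.classInner_isNat (CharDeep.LinearChar.isCharacter_of_hom lam)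
    (Characters.Core.isCharacter_comp C.subtype (Characters.Core.isIrr_isCharacter χ.2))
  refine ⟨m, ?_⟩
  rw [Characters.Core.classInner_def] at hm
  have hne : (Nat.card C : ℂ) ≠ 0 := Characters.Core.card_ne_zero_complex
  rw [← hm, mul_inv_cancel_left₀ hne]
  have h1 : ∑ x : C, mu C lam x * (χ : G → ℂ) (x : G)⁻¹ = ∑ x, mu C lam x * (χ : G → ℂ) x⁻¹ := by
    have h0 : ∑ x, mu C lam x * (χ : G → ℂ) x⁻¹ =
        ∑ x ∈ Finset.univ.filter (fun x => x ∈ C), mu C lam x * (χ : G → ℂ) x⁻¹ := by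
      symm
      refine Finset.sum_filter_of_ne fun x _ hx => ?_
      by_contra hxC
      exact hx (by rw [mu_of_notMem lam hxC, zero_mul])
    rw [h0, Finset.sum_subtype (p := fun x => x ∈ C) (Finset.univ.filter (fun x => x ∈ C)) (by simp)]
  rw [← h1]
  refine Finset.sum_congr rfl fun x _ => ?_
  rw [mu_of_mem lam x.2]
  congr 1
  exact Characters.Core.isCharacter_apply_inv (Characters.Core.isIrr_isCharacter χ.2) _

variable {M : Ideal AlgInt} {P : Sylow 3 G} {A : Subgroup G} {D : Finset G} {z : G}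

/-- **the right side** -/
theorem right [Fintype G] (hM : IsPModular 3 M) (h : Hyp (P : Subgroup G) A z) (hD : HypD D z) (hC : HypC P D z)
    (B : Finset (IrrCharacter G)) (hB : ∀ χ ∈ B, χ ∈ principalBlock M G)
    (hv : ∀ χ ∈ B, (charDegree (χ : G → ℂ)).factorization 3 ≠ 1) {c : G → ℂ}
    (hc : ∀ g, c g = (Nat.card G : ℂ)⁻¹ * ∑ χ ∈ B, (χ : G → ℂ) 1 * (χ : G → ℂ) g⁻¹) (C : Subgroup G) (lam : C →* ℂˣ)
    {k : ℕ} (hk : C.index = 3 * k) (hk3 : ¬ 3 ∣ k) : MemLocalIdeal M (LL c C lam D / 9) := by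
  classical
  rw [LL_eq B hc C lam hC.cj, Finset.sum_div]
  have hMp := isPrime hM
  refine Blocks.Local.memLocalIdeal_sum fun χ hχ => ?_
  obtain ⟨w, r, hw, hr⟩ := dvd_val hM h hD hC χ (hB χ hχ) (hv χ hχ)
  obtain ⟨m, hm⟩ := sum_mu C lam χ
  rw [hw, hm]
  have h1 : (χ : G → ℂ) 1 * ((w : ℂ) - D.card) ^ 2 = 81 * r := by
    rw [Blocks.Basic.irr_one_eq_charDegree χ.2]
    exact_mod_cast hr
  have h2 : (Nat.card G : ℂ) = Nat.card C * (3 * k) := by
    rw [← C.card_mul_index, hk]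
    push_cast
    ring
  have hne : (Nat.card C : ℂ) ≠ 0 := Characters.Core.card_ne_zero_complex
  have hk0 : (k : ℂ) ≠ 0 := by
    intro h0
    have h00 : k = 0 := by exact_mod_cast h0
    exact hk3 (h00 ▸ dvd_zero 3)
  have h3 : (Nat.card G : ℂ)⁻¹ * (χ : G → ℂ) 1 * ((w : ℂ) - D.card) ^ 2 * (Nat.card C * m) / 9 =
      3 * ((r : ℂ) * m * (k : ℂ)⁻¹) := by
    rw [mul_assoc (Nat.card G : ℂ)⁻¹, h1, h2]
    field_simp
    ring
  rw [h3]
  refine memLocalIdeal_mul_right hM ?_ ?_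
  · have := (memLocalIdeal_natCast_iff hM 3).2 dvd_rfl
    simpa using this
  · refine memLocalRing_mul hM (memLocalRing_mul hM (memLocalRing_intCast hM _) (memLocalRing_natCast hM _)) ?_
    exact Blocks.Local.memLocalRing_inv (memLocalRing_natCast hM _) fun h4 => hk3 ((memLocalIdeal_natCast_iff hM k).1 h4)

end Cfsg.Agent.H743.HT
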