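import Cfsg.Agent.H743.HT.LeftIn
import Cfsg.Agent.Blocks.ConvCentral
import Cfsg.Agent.Blocks.ClassSum
import Cfsg.Agent.Blocks.ClassScalar
import Cfsg.Agent.Blocks.PElements
import Cfsg.Agent.Characters.Galois
import Cfsg.Agent.CharDeep.LinearChar
import Cfsg.Agent.H674.Codegree
import Cfsg.Agent.H691.M23.Choice

/-!
# S4933, theorem M: the values (helper743)

`dvd_val` : for `χ` in the principal block with `v(χ(1)) ≠ 1`: `81 ∣ χ(1) (w - n)²`.
-/

set_option autoImplicit false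
set_option linter.unusedSectionVars false

open Subgroup Cfsg
open Cfsg.Agent.Blocks.LocalRing

namespace Cfsg.Agent.H743.HT

universe u

/-- values at an element of order `3` -/
theorem t_val {G : Type*} [Group G] {χ : G → ℂ} (hχ : IsCharacter G χ) {d : G} (hd : d ^ 3 = 1) :
    ∃ k : ℤ, χ d + χ d⁻¹ - 2 * χ 1 = 3 * k := by
  obtain ⟨n, ρ, rfl⟩ := hχ
  have hζ := Complex.isPrimitiveRoot_exp 3 (by norm_num)
  obtain ⟨e, he⟩ := Characters.Galois.exists_nat_coeffs ρ d (n := 3) (by norm_num) hd hζ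
  set ζ := Complex.exp (2 * Real.pi * Complex.I / (3 : ℕ)) with hζdef
  have h0 := he 0
  have h1 := he 1
  have h2 := he 2
  simp only [Finset.sum_range_succ, Finset.sum_range_zero, pow_zero, mul_zero, mul_one, zero_add,
    zero_mul, pow_one, one_mul] at h0 h1 h2
  have hz3 : ζ ^ 3 = 1 := hζ.pow_eq_one
  have hz4 : ζ ^ (2 * 2) = ζ := by rw [show 2 * 2 = 3 + 1 by norm_num, pow_add, hz3]; ring
  have hne : ζ ≠ 1 := hζ.ne_one (by norm_num)
  have hsum : ζ ^ 2 = -1 - ζ := by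
    have : (ζ - 1) * (ζ ^ 2 + ζ + 1) = 0 := by linear_combination hz3
    rcases mul_eq_zero.mp this with h | h
    · exact absurd (sub_eq_zero.mp h) hne
    · linear_combination h
  rw [hz4] at h2
  have hi : d⁻¹ = d ^ 2 := by rw [pow_two]; exact (zz hd).symm
  refine ⟨-((e 1 : ℤ) + e 2), ?_⟩
  rw [hi, h2, h1, h0]
  push_cast
  linear_combination ((e 1 : ℂ) + e 2) * hsum

/-- the value of an irreducible character at a central element of order `3` of the commutator subgroup -/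
theorem t_irr {P : Type*} [Group P] [Finite P] (hP : IsPGroup 3 P) {z : P} (hz : ∀ x, x * z = z * x) (hz3 : z ^ 3 = 1)
    (hzc : z ∈ commutator P) {θ : P → ℂ} (hθ : IsIrrCharacter P θ) : ∃ k : ℤ, θ z + θ z⁻¹ - 2 * θ 1 = 9 * k := by
  have : Fact (Nat.Prime 3) := ⟨Nat.prime_three⟩
  have hdvd := Cfsg.Agent.H674.Codegree.charDegree_dvd_card hθ
  obtain ⟨a, ha⟩ := IsPGroup.iff_card.1 hP
  rw [ha] at hdvd
  obtain ⟨i, -, hi⟩ := (Nat.dvd_prime_pow Nat.prime_three).1 hdvd
  have hdeg : θ 1 = ((3 ^ i : ℕ) : ℂ) := by rw [Blocks.Basic.irr_one_eq_charDegree hθ, hi]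
  have hlin : i = 0 → θ z = 1 := by
    rintro rfl
    rw [pow_zero, Nat.cast_one] at hdeg
    obtain ⟨f, hf⟩ := CharDeep.LinearChar.exists_hom_of_isCharacter (Characters.Core.isIrr_isCharacter hθ) hdeg
    have h1 : z ∈ f.ker := (Abelianization.commutator_subset_ker f) hzc
    rw [hf, (MonoidHom.mem_ker).1 h1, Units.val_one]
  obtain ⟨n, ρ, hρ, rfl⟩ := hθ
  obtain ⟨l, hl⟩ := Blocks.ClassScalar.exists_smul_of_commute ρ hρ (ρ z) (fun g => by
    rw [← map_mul, ← map_mul, hz])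
  have hz2 : z⁻¹ = z * z := (zz hz3).symm
  have htr : ∀ c : ℂ, LinearMap.trace ℂ (Fin n → ℂ) (c • (1 : Module.End ℂ (Fin n → ℂ))) = c * ρ.character 1 := by
    intro c
    rw [map_smul, smul_eq_mul]
    change _ = c * LinearMap.trace ℂ (Fin n → ℂ) (ρ 1)
    rw [map_one ρ]
  have e1 : ρ.character z = l * ρ.character 1 := by
    rw [← htr, ← hl]
    rfl
  have e2 : ρ.character z⁻¹ = l * l * ρ.character 1 := by
    have h1 : ρ (z * z) = (l * l) • (1 : Module.End ℂ (Fin n → ℂ)) := by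
      rw [map_mul, hl, smul_mul_smul_comm, one_mul]
    rw [hz2, ← htr, ← h1]
    rfl
  have e3 : l ^ 3 = 1 := by
    have h1 : ρ.character (z ^ 3) = l * l * l * ρ.character 1 := by
      have h1 : ρ (z ^ 3) = (l * l * l) • (1 : Module.End ℂ (Fin n → ℂ)) := by
        rw [pow_succ, pow_two, map_mul, map_mul, hl, smul_mul_smul_comm, smul_mul_smul_comm, one_mul, one_mul]
      rw [← htr, ← h1]
      rfl
    rw [hz3] at h1
    have h0 : ρ.character 1 ≠ 0 := by
      rw [hdeg]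
      exact_mod_cast (pow_pos (by norm_num : 0 < 3) i).ne'
    have h2 : (l ^ 3 - 1) * ρ.character 1 = 0 := by linear_combination -h1
    rcases mul_eq_zero.1 h2 with h3 | h3
    · exact sub_eq_zero.1 h3
    · exact absurd h3 h0
  by_cases hl1 : l = 1
  · refine ⟨0, ?_⟩
    rw [e1, e2, hl1]
    push_cast
    ring
  · have h5 : l ^ 2 + l + 1 = 0 := by
      have h6 : (l - 1) * (l ^ 2 + l + 1) = 0 := by linear_combination e3
      rcases mul_eq_zero.1 h6 with h7 | h7
      · exact absurd (sub_eq_zero.1 h7) hl1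
      · exact h7
    have hi0 : i ≠ 0 := by
      intro h0
      apply hl1
      have h7 := hlin h0
      rw [e1, hdeg, h0, pow_zero, Nat.cast_one, mul_one] at h7
      exact h7
    obtain ⟨j, rfl⟩ := Nat.exists_eq_succ_of_ne_zero hi0
    refine ⟨-(3 ^ j : ℕ), ?_⟩
    rw [e1, e2, hdeg, pow_succ]
    push_cast
    linear_combination (3 ^ j * 3 : ℂ) * h5

theorem t_char {P : Type*} [Group P] [Finite P] (hP : IsPGroup 3 P) {z : P} (hz : ∀ x, x * z = z * x) (hz3 : z ^ 3 = 1)
    (hzc : z ∈ commutator P) {θ : P → ℂ} (hθ : IsCharacter P θ) : ∃ k : ℤ, θ z + θ z⁻¹ - 2 * θ 1 = 9 * k := by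
  classical
  have := Characters.Core.finite_irr (G := P)
  have := Fintype.ofFinite (IrrCharacter P)
  obtain ⟨m, hm⟩ := Characters.Core.exists_nat_comb hθ
  choose k hk using fun ψ : IrrCharacter P => t_irr hP hz hz3 hzc ψ.2
  refine ⟨∑ ψ, m ψ * k ψ, ?_⟩
  have hval : ∀ x, θ x = ∑ ψ : IrrCharacter P, (m ψ : ℂ) * (ψ : P → ℂ) x := by
    intro x
    rw [hm, Finset.sum_apply]
    exact Finset.sum_congr rfl fun ψ _ => by rw [Pi.smul_apply, nsmul_eq_mul]
  rw [hval, hval, hval]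
  push_cast
  rw [Finset.mul_sum, Finset.mul_sum, ← Finset.sum_add_distrib, ← Finset.sum_sub_distrib]
  refine Finset.sum_congr rfl fun ψ _ => ?_
  linear_combination (m ψ : ℂ) * hk ψ

section Main

variable {G : Type u} [Group G]

/-- the conditions on `D` in `G` -/
structure HypC (P : Sylow 3 G) (D : Finset G) (z : G) : Prop where
  cj : ∀ x : G, ∀ d ∈ D, x * d * x⁻¹ ∈ D
  inv : ∀ d ∈ D, d⁻¹ ∈ D
  three : ∀ d ∈ D, d ^ 3 = 1
  mem : z ∈ (P : Subgroup G)
  com : (⟨z, mem⟩ : (P : Subgroup G)) ∈ commutator (P : Subgroup G)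

variable {P : Sylow 3 G} {A : Subgroup G} {D : Finset G} {z : G}

theorem mem_sylow_of_comm [Finite G] (P : Sylow 3 G) {d : G} (hd : d ^ 3 = 1) (h : d ∈ normalizer ((P : Subgroup G) : Set G)) :
    d ∈ (P : Subgroup G) := by
  have : Fact (Nat.Prime 3) := ⟨Nat.prime_three⟩
  have h1 : IsPGroup 3 (zpowers d) := by
    intro ⟨x, hx⟩
    refine ⟨1, ?_⟩
    obtain ⟨k, rfl⟩ := hx
    apply Subtype.ext
    change (d ^ k) ^ 3 ^ 1 = 1
    rw [pow_one, ← zpow_natCast, ← zpow_mul, mul_comm, zpow_mul, zpow_natCast, hd, one_zpow]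
  have h2 := h1.inf_normalizer_sylow P
  have h3 : d ∈ zpowers d ⊓ normalizer (P : Set G) := ⟨mem_zpowers d, h⟩
  rw [h2] at h3
  exact h3.2

/-- a power of `z` -/
theorem mem_zpowers_three {z d : G} (h3 : z ^ 3 = 1) (h : d ∈ zpowers z) : d = 1 ∨ d = z ∨ d = z⁻¹ := by
  obtain ⟨k, rfl⟩ := h
  have h1 : z ^ k = z ^ (k % 3) := by
    conv_lhs => rw [← Int.emod_add_mul_ediv k 3]
    rw [zpow_add, zpow_mul, show z ^ (3 : ℤ) = 1 from by exact_mod_cast h3, one_zpow, mul_one]
  simp only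
  rw [h1]
  have h2 : k % 3 = 0 ∨ k % 3 = 1 ∨ k % 3 = 2 := by omega
  rcases h2 with h2 | h2 | h2
  · left; rw [h2, zpow_zero]
  · right; left; rw [h2, zpow_one]
  · right; right
    rw [h2, ← zz h3]
    exact_mod_cast pow_two z

/-- the sum of the values over `D`, modulo `9` -/
theorem sum_t [Finite G] (h : Hyp (P : Subgroup G) A z) (hD : HypD D z) (hC : HypC P D z) {χ : G → ℂ}
    (hχ : IsCharacter G χ) : ∃ k : ℤ, ∑ d ∈ D, (χ d + χ d⁻¹ - 2 * χ 1) = 9 * k := by
  classical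
  have : Fact (Nat.Prime 3) := ⟨Nat.prime_three⟩
  have hcl := Characters.Core.isCharacter_isClassFunction hχ
  have hex : ∀ d : G, ∃ k : ℤ, d ^ 3 = 1 → χ d + χ d⁻¹ - 2 * χ 1 = 3 * k := by
    intro d
    by_cases hd : d ^ 3 = 1
    · obtain ⟨k, hk⟩ := t_val hχ hd
      exact ⟨k, fun _ => hk⟩
    · exact ⟨0, fun h => absurd h hd⟩
  choose k hk using hex
  obtain ⟨m, hm⟩ := t_char h.pg (z := (⟨z, hC.mem⟩ : (P : Subgroup G))) (fun x => Subtype.ext (h.zc x x.2))
    (Subtype.ext h.z3) hC.com (Characters.Core.isCharacter_comp (P : Subgroup G).subtype hχ)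
  have hm' : χ z + χ z⁻¹ - 2 * χ 1 = 9 * m := hm
  let X : Finset G := D.filter fun d => d ≠ z ∧ d ≠ z⁻¹
  have hX3 : ∀ d ∈ X, d ^ 3 = 1 := fun d hd => hC.three d (Finset.mem_filter.1 hd).1
  have hzc : ∀ u ∈ (P : Subgroup G), u * z * u⁻¹ = z := fun u hu => by rw [h.zc u hu, mul_inv_cancel_right]
  obtain ⟨a, ha⟩ := Blocks.OrbitSum.sum_eq_smul_of_disjoint_centralizer (P : Subgroup G) P.2 X
    (by
      intro u hu x hx
      rw [Finset.mem_filter] at hx ⊢
      refine ⟨hC.cj u x hx.1, fun h1 => hx.2.1 ?_, fun h1 => hx.2.2 ?_⟩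
      · rw [← hzc u hu] at h1
        exact mul_left_cancel (mul_right_cancel h1)
      · rw [← hzc u hu] at h1
        have h2 : u * x * u⁻¹ = u * z⁻¹ * u⁻¹ := by rw [h1]; group
        exact mul_left_cancel (mul_right_cancel h2))
    (by
      intro x hx hxc
      have hxn : x ∈ normalizer ((P : Subgroup G) : Set G) := by
        rw [mem_normalizer_iff]
        have h0 := mem_centralizer_iff.1 hxc
        intro y
        constructor
        · intro hy
          rw [← h0 y hy, mul_inv_cancel_right]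
          exact hy
        · intro hy
          have h1 := h0 _ hy
          have h2 : x * y * x⁻¹ = y := by
            have h3 : x * y * x⁻¹ * x = x * (x * y * x⁻¹) := h1
            have h4 : x * y = x * (x * y * x⁻¹) := by rw [← h3]; group
            exact (mul_left_cancel h4).symm
          rw [← h2]; exact hy
      have hxP := mem_sylow_of_comm P (hX3 x hx) hxn
      have h1 := h.cen x hxP (hX3 x hx) fun y hy => mem_centralizer_iff.1 hxc y hy
      have hx2 := (Finset.mem_filter.1 hx)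
      rcases mem_zpowers_three h.z3 h1 with h2 | h2 | h2
      · exact hD.one (by rw [← h2]; exact hx2.1)
      · exact hx2.2.1 h2
      · exact hx2.2.2 h2)
    k
    (by
      intro u hu x hx
      have h1 := hk x (hX3 x hx)
      have h2 : (u * x * u⁻¹) ^ 3 = 1 := by
        rw [conj_pow, hX3 x hx, mul_one, mul_inv_cancel]
      have h3 := hk _ h2
      have h4 : (u * x * u⁻¹)⁻¹ = u * x⁻¹ * u⁻¹ := by group
      rw [h4, hcl x u, hcl x⁻¹ u, h1] at h3
      have h5 : ((k x : ℤ) : ℂ) = (k (u * x * u⁻¹) : ℤ) := mul_left_cancel₀ (by norm_num : (3 : ℂ) ≠ 0) h3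
      exact_mod_cast h5.symm)
  have hDz : D = insert z (insert z⁻¹ X) := by
    ext d
    rw [Finset.mem_insert, Finset.mem_insert, Finset.mem_filter]
    constructor
    · intro h1
      by_cases h2 : d = z
      · exact Or.inl h2
      · by_cases h3 : d = z⁻¹
        · exact Or.inr (Or.inl h3)
        · exact Or.inr (Or.inr ⟨h1, h2, h3⟩)
    · rintro (rfl | rfl | h1)
      · exact hD.zm
      · exact hD.zi
      · exact h1.1
  have hz1 : z ∉ insert z⁻¹ X := by
    rw [Finset.mem_insert, Finset.mem_filter]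
    rintro (h1 | h1)
    · exact hD.ne h1
    · exact h1.2.1 rfl
  have hz2 : z⁻¹ ∉ X := by
    rw [Finset.mem_filter]
    exact fun h1 => h1.2.2 rfl
  have hXs : ∑ d ∈ X, (χ d + χ d⁻¹ - 2 * χ 1) = 9 * a := by
    rw [Finset.sum_congr rfl fun d hd => hk d (hX3 d hd), ← Finset.mul_sum]
    have h1 : ((∑ d ∈ X, k d : ℤ) : ℂ) = ((3 • a : ℤ) : ℂ) := by rw [ha]
    push_cast at h1
    rw [h1]
    simp only [nsmul_eq_mul]
    push_cast
    ring
  refine ⟨2 * m + a, ?_⟩
  rw [hDz, Finset.sum_insert hz1, Finset.sum_insert hz2, hXs, inv_inv]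
  push_cast
  linear_combination 2 * hm'

end Main

end Cfsg.Agent.H743.HT
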